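import Cfsg.Agent.H134.Bert
import Cfsg.Agent.H146.Inv4.Base
import Cfsg.Prelude.Def_Classical

/-!
# S4171, the alternating row: every element of `A_n` (`n ≥ 5`) is a product of four elements
with square one

By Bertram's theorem (`H134.Bert.bertram_exact`) an even permutation is a product of two `l`-cycles
with `l` odd and `l ≤ n - 2` (except for the type `2^4` in `A_8` and the types `42`, `33` in `A_6`),
and such an `l`-cycle is a product of two even involutions.
-/

set_option autoImplicit false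

namespace Cfsg.Agent.H146.Inv4

open Equiv Equiv.Perm H134.Bert

section

variable {α : Type*} [DecidableEq α] [Fintype α]

/-- `g` is a product of four even permutations of square one. -/
def EE (g : Perm α) : Prop :=
  ∃ a b c d : Perm α, sign a = 1 ∧ sign b = 1 ∧ sign c = 1 ∧ sign d = 1 ∧
    a * a = 1 ∧ b * b = 1 ∧ c * c = 1 ∧ d * d = 1 ∧ g = a * b * c * d

/-- `g` is a product of two even permutations of square one. -/
def DD (g : Perm α) : Prop :=
  ∃ a b : Perm α, sign a = 1 ∧ sign b = 1 ∧ a * a = 1 ∧ b * b = 1 ∧ g = a * b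

theorem DD.mul {g h : Perm α} (hg : DD g) (hh : DD h) : EE (g * h) := by
  obtain ⟨a, b, ha, hb, ha', hb', rfl⟩ := hg
  obtain ⟨c, d, hc, hd, hc', hd', rfl⟩ := hh
  exact ⟨a, b, c, d, ha, hb, hc, hd, ha', hb', hc', hd', by group⟩

theorem DD.one : DD (1 : Perm α) := ⟨1, 1, by simp, by simp, by simp, by simp, by simp⟩

theorem EE.conj {g : Perm α} (h : EE g) (w : Perm α) : EE (w * g * w⁻¹) := by
  have key : ∀ a : Perm α, sign a = 1 → sign (w * a * w⁻¹) = 1 := by
    intro a ha
    rw [map_mul, map_mul, ha, mul_one, ← map_mul, mul_inv_cancel, map_one]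
  have key2 : ∀ a : Perm α, a * a = 1 → (w * a * w⁻¹) * (w * a * w⁻¹) = 1 := by
    intro a ha
    have : (w * a * w⁻¹) * (w * a * w⁻¹) = w * (a * a) * w⁻¹ := by group
    rw [this, ha]; group
  obtain ⟨a, b, c, d, ha, hb, hc, hd, ha', hb', hc', hd', rfl⟩ := h
  exact ⟨_, _, _, _, key a ha, key b hb, key c hc, key d hd, key2 a ha', key2 b hb', key2 c hc',
    key2 d hd', by group⟩

theorem EE.of_cycleType {g g' : Perm α} (h : EE g) (e : g.cycleType = g'.cycleType) : EE g' := by
  obtain ⟨w, rfl⟩ := isConj_iff.1 (isConj_iff_cycleType_eq.2 e)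
  exact h.conj w

/-- A cycle is inverted by a permutation of square one with support in the cycle. -/
theorem refl_cycle {u : Perm α} (hu : u.IsCycle) :
    ∃ a : Perm α, a * a = 1 ∧ a * u = u⁻¹ * a ∧ ∀ x, u x = x → a x = x := by
  obtain ⟨w, hw⟩ := isConj_iff.1 (isConj_iff_cycleType_eq.2 (cycleType_inv u).symm)
  have hw' : ∀ x, w (u x) = u⁻¹ (w x) := by
    intro x
    have : w * u = u⁻¹ * w := by rw [← hw]; group
    exact congrArg (fun f : Perm α => f x) this
  have hinv : ∀ y, u⁻¹ y = y ↔ u y = y := by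
    intro y
    rw [inv_eq_iff_eq]
    exact eq_comm
  have hX : ∀ x, u (w x) ≠ w x ↔ u x ≠ x := by
    intro x
    have : u (w x) = w x ↔ u x = x := by
      rw [← hinv (w x), ← hw' x]
      exact w.injective.eq_iff
    rw [not_iff_not]
    exact this
  classical
  let w' : Perm α := (w.subtypePerm (p := fun x => u x ≠ x) hX).ofSubtype
  have h1 : ∀ x, u x ≠ x → w' x = w x := by
    intro x hx
    have := ofSubtype_apply_of_mem (w.subtypePerm (p := fun x => u x ≠ x) hX) hx
    rw [this]; rfl
  have h2 : ∀ x, u x = x → w' x = x := by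
    intro x hx
    exact ofSubtype_apply_of_not_mem (w.subtypePerm (p := fun x => u x ≠ x) hX)
      (fun h => h hx)
  have h3 : ∀ x, w' (u x) = u⁻¹ (w' x) := by
    intro x
    by_cases hx : u x = x
    · rw [hx, h2 x hx, eq_comm, hinv]; exact hx
    · have : u (u x) ≠ u x := fun h => hx (u.injective h)
      rw [h1 _ this, h1 _ hx, hw']
  obtain ⟨x0, hx0, hx0'⟩ := hu
  obtain ⟨k, hk⟩ : SameCycle u x0 (w' x0) := by
    apply hx0'
    rw [h1 _ hx0]
    exact (hX x0).2 hx0
  let a : Perm α := (u ^ k)⁻¹ * w'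
  have ha0 : a x0 = x0 := by
    show (u ^ k)⁻¹ (w' x0) = x0
    rw [← hk]
    exact (u ^ k).symm_apply_apply x0
  have hau : a * u = u⁻¹ * a := by
    have h4 : w' * u = u⁻¹ * w' := Equiv.ext h3
    show (u ^ k)⁻¹ * w' * u = u⁻¹ * ((u ^ k)⁻¹ * w')
    rw [mul_assoc, h4, ← mul_assoc, ← mul_assoc]
    congr 1
    group
  have hfix : ∀ x, u x = x → a x = x := by
    intro x hx
    show (u ^ k)⁻¹ (w' x) = x
    rw [h2 x hx, inv_eq_iff_eq]
    exact ((show Function.IsFixedPt u x from hx).perm_zpow k).symm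
  have haa : a * a * u = u * (a * a) := by
    rw [mul_assoc, hau, ← mul_assoc]
    have h5 : a * u⁻¹ = u * a := by
      calc a * u⁻¹ = u * (u⁻¹ * a) * u⁻¹ := by group
        _ = u * (a * u) * u⁻¹ := by rw [hau]
        _ = u * a := by group
    rw [h5, mul_assoc]
  refine ⟨a, ?_, hau, hfix⟩
  ext x
  rw [Perm.one_apply]
  by_cases hx : u x = x
  · rw [Perm.mul_apply, hfix x hx, hfix x hx]
  · obtain ⟨j, hj⟩ := hx0' hx
    have h6 : Commute (a * a) (u ^ j) := (show Commute (a * a) u from haa).zpow_right j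
    have h7 : (a * a) x0 = x0 := by rw [Perm.mul_apply, ha0, ha0]
    rw [← hj, ← Perm.mul_apply, h6.eq, Perm.mul_apply, h7]

/-- An even cycle with two fixed points is a product of two even permutations of square one. -/
theorem DD.of_cyc {u : Perm α} {X : Finset α} (hu : Cyc u X) (ho : Odd X.card)
    (hn : X.card + 2 ≤ Fintype.card α) : DD u := by
  by_cases h1 : X.card = 1
  · have : u = 1 := by
      have := hu.orderOf
      rwa [h1, orderOf_eq_one_iff] at this
    rw [this]; exact DD.one
  have hX2 : 2 ≤ X.card := by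
    have := hu.nonempty.card_pos
    omega
  have hcy : u.IsCycle := by
    rw [← card_cycleType_eq_one, hu.cycleType hX2]; rfl
  have hsu : sign u = 1 := hu.sign ho
  obtain ⟨a, ha, hau, hfix⟩ := refl_cycle hcy
  have hb : (a * u) * (a * u) = 1 := by
    calc (a * u) * (a * u) = (a * u) * (u⁻¹ * a) := by rw [hau]
      _ = a * a := by group
      _ = 1 := ha
  have hab : a * (a * u) = u := by rw [← mul_assoc, ha, one_mul]
  rcases Int.units_eq_one_or (sign a) with hs | hs
  · exact ⟨a, a * u, hs, by rw [map_mul, hs, hsu]; rfl, ha, hb, hab.symm⟩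
  obtain ⟨p, q, hp, hq, hpq⟩ : ∃ p q, p ∉ X ∧ q ∉ X ∧ p ≠ q := by
    have : 1 < (Xᶜ).card := by rw [Finset.card_compl]; omega
    obtain ⟨p, hp, q, hq, hpq⟩ := Finset.one_lt_card.1 this
    exact ⟨p, q, Finset.mem_compl.1 hp, Finset.mem_compl.1 hq, hpq⟩
  have cu : u * swap p q = swap p q * u := by
    have := Equiv.mul_swap_eq_swap_mul u p q
    rwa [hu.apply_notMem hp, hu.apply_notMem hq] at this
  have ca : a * swap p q = swap p q * a := by
    have := Equiv.mul_swap_eq_swap_mul a p q
    rwa [hfix p (hu.apply_notMem hp), hfix q (hu.apply_notMem hq)] at this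
  have hss : swap p q * swap p q = 1 := swap_mul_self p q
  refine ⟨a * swap p q, swap p q * (a * u), ?_, ?_, ?_, ?_, ?_⟩
  · rw [map_mul, hs, sign_swap hpq]; rfl
  · rw [map_mul, map_mul, hs, hsu, sign_swap hpq]; rfl
  · calc a * swap p q * (a * swap p q) = a * (swap p q * a) * swap p q := by group
      _ = a * (a * swap p q) * swap p q := by rw [ca]
      _ = (a * a) * (swap p q * swap p q) := by group
      _ = 1 := by rw [ha, hss]; rfl
  · have cau : (a * u) * swap p q = swap p q * (a * u) := by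
      rw [mul_assoc, cu, ← mul_assoc, ca, mul_assoc]
    calc swap p q * (a * u) * (swap p q * (a * u))
        = swap p q * ((a * u) * swap p q) * (a * u) := by group
      _ = swap p q * (swap p q * (a * u)) * (a * u) := by rw [cau]
      _ = (swap p q * swap p q) * ((a * u) * (a * u)) := by group
      _ = 1 := by rw [hb, hss]; rfl
  · calc u = a * (a * u) := hab.symm
      _ = a * (swap p q * swap p q) * (a * u) := by rw [hss, mul_one]
      _ = a * swap p q * (swap p q * (a * u)) := by group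

theorem EE.of_two {g : Perm α} {l : ℕ} (h : Two g l) (hl : Odd l)
    (hn : l + 2 ≤ Fintype.card α) : EE g := by
  obtain ⟨u, v, X, Y, hu, hv, e, hX, hY⟩ := h
  rw [e]
  exact (DD.of_cyc hu (hX ▸ hl) (hX ▸ hn)).mul (DD.of_cyc hv (hY ▸ hl) (hY ▸ hn))

end

theorem ee_42 : ∃ t : Perm (Fin 6), EE t ∧ t.cycleType = {2, 4} := by
  refine ⟨([0, 1, 2, 3] : List (Fin 6)).formPerm * ([4, 5] : List (Fin 6)).formPerm,
    ⟨([0, 1] : List (Fin 6)).formPerm * ([2, 3] : List (Fin 6)).formPerm,
      ([1, 3] : List (Fin 6)).formPerm * ([4, 5] : List (Fin 6)).formPerm, 1, 1,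
      by decide, by decide, by decide, by decide, by decide, by decide, by decide, by decide,
      by decide⟩, by decide⟩

theorem ee_33 : ∃ t : Perm (Fin 6), EE t ∧ t.cycleType = {3, 3} := by
  refine ⟨([0, 1, 2] : List (Fin 6)).formPerm * ([3, 4, 5] : List (Fin 6)).formPerm,
    ⟨([0, 1] : List (Fin 6)).formPerm * ([3, 4] : List (Fin 6)).formPerm,
      ([1, 2] : List (Fin 6)).formPerm * ([4, 5] : List (Fin 6)).formPerm, 1, 1,
      by decide, by decide, by decide, by decide, by decide, by decide, by decide, by decide,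
      by decide⟩, by decide⟩

/-- Every even permutation of at least five points is a product of four even permutations of
square one. -/
theorem ee_all {n : ℕ} (hn : 5 ≤ n) (g : Perm (Fin n)) (hg : sign g = 1) : EE g := by
  by_cases hg1 : g = 1
  · rw [hg1]
    simpa using (DD.one (α := Fin n)).mul DD.one
  obtain ⟨r, hr, hr1, h⟩ := bertram_exact g hg hg1
  have hc := card_cycleType_le g
  have hs : g.support.card ≤ n := by
    have := Finset.card_le_univ g.support
    rwa [Fintype.card_fin] at this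
  by_cases ho : ∃ l, r ≤ l ∧ l + 2 ≤ n ∧ l % 2 = 1
  · obtain ⟨l, h1, h2, h3⟩ := ho
    have hl : l ≤ Fintype.card (Fin n) := by rw [Fintype.card_fin]; omega
    exact EE.of_two (h.mono h1 hl) (Nat.odd_iff.2 h3) (by rw [Fintype.card_fin]; omega)
  push Not at ho
  have key : r + 2 = n ∧ (n = 6 ∨ n = 8) := by
    have h1 := ho r le_rfl
    have h2 := ho (r + 1) (by omega)
    omega
  obtain ⟨hr2, h68⟩ := key
  have h2le : ∀ m ∈ g.cycleType, 2 ≤ m := fun m hm => two_le_of_mem_cycleType hm
  rcases h68 with rfl | rfl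
  · have hc2 : Multiset.card g.cycleType = 2 := by omega
    have hsum : g.cycleType.sum = 6 := by rw [sum_cycleType]; omega
    obtain ⟨a, b, hab⟩ := Multiset.card_eq_two.1 hc2
    rw [hab] at hsum h2le
    have ha := h2le a (by simp)
    have hb := h2le b (by simp)
    simp only [Multiset.insert_eq_cons, Multiset.sum_cons, Multiset.sum_singleton] at hsum
    obtain ⟨t, ht, ht'⟩ := ee_42
    obtain ⟨u, hu, hu'⟩ := ee_33
    have : (a = 2 ∧ b = 4) ∨ (a = 3 ∧ b = 3) ∨ (a = 4 ∧ b = 2) := by omega
    rcases this with ⟨rfl, rfl⟩ | ⟨rfl, rfl⟩ | ⟨rfl, rfl⟩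
    · exact ht.of_cycleType (by rw [ht', hab])
    · exact hu.of_cycleType (by rw [hu', hab])
    · exact ht.of_cycleType (by rw [ht', hab, Multiset.pair_comm])
  · have hc4 : Multiset.card g.cycleType = 4 := by omega
    have hsum : g.cycleType.sum = 8 := by rw [sum_cycleType]; omega
    have hall : ∀ m ∈ g.cycleType, m = 2 := by
      intro m hm
      obtain ⟨s, hs'⟩ := Multiset.exists_cons_of_mem hm
      have h3 : ∀ x ∈ s, 2 ≤ x := fun x hx => h2le x (by rw [hs']; simp [hx])
      have h4 := Multiset.card_nsmul_le_sum h3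
      rw [hs', Multiset.sum_cons] at hsum
      rw [hs', Multiset.card_cons] at hc4
      have h5 := h2le m hm
      simp only [smul_eq_mul] at h4
      omega
    have hgg : g * g = 1 := by
      have h6 : orderOf g ∣ 2 := by
        rw [← lcm_cycleType, Multiset.lcm_dvd]
        intro m hm
        rw [hall m hm]
      have h7 := orderOf_dvd_iff_pow_eq_one.1 h6
      rwa [pow_two] at h7
    exact ⟨g, 1, 1, 1, hg, by simp, by simp, by simp, hgg, by simp, by simp, by simp, by simp⟩

/-- **S4171, the alternating row**. -/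
theorem i4_alternatingGroup {n : ℕ} (hn : 5 ≤ n) : I4 (alternatingGroup (Fin n)) := by
  intro g
  obtain ⟨a, b, c, d, ha, hb, hc, hd, ha', hb', hc', hd', e⟩ :=
    ee_all hn (g : Perm (Fin n)) (mem_alternatingGroup.1 g.2)
  exact ⟨⟨a, mem_alternatingGroup.2 ha⟩, ⟨b, mem_alternatingGroup.2 hb⟩,
    ⟨c, mem_alternatingGroup.2 hc⟩, ⟨d, mem_alternatingGroup.2 hd⟩, Subtype.ext ha',
    Subtype.ext hb', Subtype.ext hc', Subtype.ext hd', Subtype.ext e⟩

/-- **S4171, the alternating row**. -/
theorem i4_alt {G : Type*} [Group G] (h : Cfsg.IsAlternating G) : I4 G := by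
  obtain ⟨n, hn, ⟨e⟩⟩ := h
  intro g
  obtain ⟨a, b, c, d, ha, hb, hc, hd, h⟩ := i4_alternatingGroup hn (e g)
  refine ⟨e.symm a, e.symm b, e.symm c, e.symm d, ?_, ?_, ?_, ?_, ?_⟩
  · rw [← map_mul, ha, map_one]
  · rw [← map_mul, hb, map_one]
  · rw [← map_mul, hc, map_one]
  · rw [← map_mul, hd, map_one]
  · rw [← map_mul, ← map_mul, ← map_mul, ← h, e.symm_apply_apply]

end Cfsg.Agent.H146.Inv4
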